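import Cfsg.Agent.SP.Basic

/-! # S5755: the criterion for signed points -/

set_option autoImplicit false

namespace Cfsg.Agent.SP.PosC

open Cfsg.Agent.SP

variable {T : Type*} [Group T] {X : Type*} [MulAction T X]

/-- The stabiliser of the pair `{x₀, ν x₀}`. -/
def sgnStab (ν : X → X) (hν : ∀ (g : T) (x : X), g • ν x = ν (g • x)) (hνν : ∀ x, ν (ν x) = x) (x₀ : X) :
    Subgroup T where
  carrier := {g | g • x₀ = x₀ ∨ g • x₀ = ν x₀}
  mul_mem' := by
    rintro a b (ha | ha) (hb | hb)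
    · left; rw [mul_smul, hb, ha]
    · right; rw [mul_smul, hb, hν, ha]
    · right; rw [mul_smul, hb, ha]
    · left; rw [mul_smul, hb, hν, ha, hνν]
  one_mem' := Or.inl (one_smul _ _)
  inv_mem' := by
    rintro a (ha | ha)
    · left; rw [inv_smul_eq_iff, ha]
    · right; rw [inv_smul_eq_iff, hν, ha, hνν]

theorem mem_sgnStab {ν : X → X} {hν : ∀ (g : T) (x : X), g • ν x = ν (g • x)} {hνν : ∀ x, ν (ν x) = x}
    {x₀ : X} {g : T} : g ∈ sgnStab ν hν hνν x₀ ↔ g • x₀ = x₀ ∨ g • x₀ = ν x₀ := Iff.rfl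

/-- `T` acts on signed points; if every point of the orbit of `x₀` is fixed up to sign by an element negating `x₀`,
then the stabilisers of `± x₀` and of `x₀` form a pair. -/
theorem isPair_signed (ν : X → X) (hν : ∀ (g : T) (x : X), g • ν x = ν (g • x)) (hνν : ∀ x, ν (ν x) = x) (x₀ : X)
    (h0 : ν x₀ ≠ x₀) (h1 : ∃ g : T, g • x₀ ≠ x₀ ∧ g • x₀ ≠ ν x₀)
    (h : ∀ g : T, ∃ k : T, k • x₀ = ν x₀ ∧ (k • g • x₀ = g • x₀ ∨ k • g • x₀ = ν (g • x₀))) :
    IsPair (sgnStab ν hν hνν x₀) (MulAction.stabilizer T x₀) := by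
  refine isPair_of_index_two ?_ (fun g hg => Or.inl hg) ?_ fun t => ?_
  · obtain ⟨g, hg1, hg2⟩ := h1
    intro e
    have : g ∈ sgnStab ν hν hνν x₀ := e ▸ Subgroup.mem_top g
    rcases this with h | h
    · exact hg1 h
    · exact hg2 h
  · intro x hx y hy hx' hy'
    have hx2 : x • x₀ = ν x₀ := hx.resolve_left hx'
    have hy2 : y • x₀ = ν x₀ := hy.resolve_left hy'
    rw [MulAction.mem_stabilizer_iff, mul_smul, hy2, hν, hx2, hνν]
  · obtain ⟨k, hk1, hk2⟩ := h t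
    refine ⟨k, Or.inr hk1, ?_, fun hk => h0 ?_⟩
    · rw [mem_sgnStab, mul_smul, mul_smul]
      rcases hk2 with hk2 | hk2
      · left; rw [hk2, inv_smul_smul]
      · right; rw [hk2, hν, inv_smul_smul]
    · rw [← hk1]; exact hk

end Cfsg.Agent.SP.PosC
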