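import Cfsg.Agent.SP.Basic
import Cfsg.Agent.Lib.PermNetOrbit
import Cfsg.Agent.Lib.PermNetPt

/-! # S5755: the pair `N(x) > C(x)` for a product `x` of two non-commuting transpositions (helper87) -/

set_option autoImplicit false

namespace Cfsg.Agent.SP.PosC.Line

open Cfsg.Agent.SP Cfsg.Agent.Lib.PermNet Cfsg.Agent.Lib.PermNetOrbit Cfsg.Agent.Lib.PermNetPt

variable {G : Type*} [Group G]

/-- The elements centralising or inverting `x`. -/
def inv2 (x : G) : Subgroup G where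
  carrier := {g | g * x * g⁻¹ = x ∨ g * x * g⁻¹ = x⁻¹}
  one_mem' := Or.inl (by simp)
  mul_mem' := by
    have hi : ∀ a y : G, a * x * a⁻¹ = y → a * x⁻¹ * a⁻¹ = y⁻¹ := by
      intro a y h; rw [← h]; group
    have hm : ∀ a b : G, a * b * x * (a * b)⁻¹ = a * (b * x * b⁻¹) * a⁻¹ := by intro a b; group
    rintro a b (ha | ha) (hb | hb)
    · left; rw [hm, hb, ha]
    · right; rw [hm, hb, hi a _ ha]
    · right; rw [hm, hb, ha]
    · left; rw [hm, hb, hi a _ ha, inv_inv]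
  inv_mem' := by
    rintro a (ha | ha)
    · left
      calc a⁻¹ * x * a⁻¹⁻¹ = a⁻¹ * (a * x * a⁻¹) * a⁻¹⁻¹ := by rw [ha]
        _ = x := by group
    · right
      calc a⁻¹ * x * a⁻¹⁻¹ = a⁻¹ * (x⁻¹)⁻¹ * a⁻¹⁻¹ := by rw [inv_inv x]
        _ = a⁻¹ * (a * x * a⁻¹)⁻¹ * a⁻¹⁻¹ := by rw [ha]
        _ = x⁻¹ := by group

theorem mem_inv2 {x g : G} : g ∈ inv2 x ↔ g * x * g⁻¹ = x ∨ g * x * g⁻¹ = x⁻¹ := Iff.rfl

theorem pairAut_of_good (x : G) (h3 : x ^ 3 = 1) (hA : ∃ g, g ∉ inv2 x)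
    (h : ∀ τ : MulAut G, ∃ y, y * x * y⁻¹ = x⁻¹ ∧ y ∈ inv2 (τ x)) : PairAut G := by
  obtain ⟨g, hg⟩ := hA
  have hne : x ≠ x⁻¹ := by
    intro e
    have h1 : x = 1 := by
      calc x = x * (x * x⁻¹) := by group
        _ = x * (x * x) := by rw [← e]
        _ = x ^ 3 := by rw [pow_succ', pow_two]
        _ = 1 := h3
    exact hg (Or.inl (by rw [h1]; group))
  refine ⟨inv2 x, Subgroup.centralizer {x}, isPairAut_of_index_two (fun e => hg (e ▸ Subgroup.mem_top g)) ?_ ?_ ?_⟩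
  · intro a ha
    rw [Subgroup.mem_centralizer_singleton_iff] at ha
    left
    rw [ha]; group
  · have key : ∀ a ∈ inv2 x, a ∉ Subgroup.centralizer ({x} : Set G) → a * x * a⁻¹ = x⁻¹ := by
      rintro a (ha | ha) hn
      · exact absurd (Subgroup.mem_centralizer_singleton_iff.2 (by rw [← mul_inv_eq_iff_eq_mul]; exact ha)) hn
      · exact ha
    intro a ha b hb h1 h2
    have e1 := key a ha h1
    have e2 := key b hb h2
    rw [Subgroup.mem_centralizer_singleton_iff, ← mul_inv_eq_iff_eq_mul]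
    calc a * b * x * (a * b)⁻¹ = a * (b * x * b⁻¹) * a⁻¹ := by group
      _ = (a * x * a⁻¹)⁻¹ := by rw [e2]; group
      _ = x := by rw [e1, inv_inv]
  · intro τ
    obtain ⟨y, h1, h2⟩ := h τ⁻¹
    refine ⟨y, Or.inr h1, ?_, fun hc => hne ?_⟩
    · have e : τ y * x * (τ y)⁻¹ = τ (y * τ⁻¹ x * y⁻¹) := by simp
      rcases h2 with h2 | h2
      · left; rw [e, h2]; simp
      · right; rw [e, h2]; simp
    · rw [Subgroup.mem_centralizer_singleton_iff] at hc
      rw [← h1, hc]; group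

/-- Some element of `E` inverts `x0` and centralises or inverts `x`. -/
def Good (E : Subgroup G) (x0 x : G) : Prop := ∃ y ∈ E, y * x0 * y⁻¹ = x0⁻¹ ∧ y ∈ inv2 x

theorem Good.conj {E : Subgroup G} (hE : E.Normal) {x0 x a : G} (ha : a ∈ inv2 x0)
    (h : Good E x0 (a * x * a⁻¹)) : Good E x0 x := by
  obtain ⟨y, hy, h1, h2⟩ := h
  refine ⟨a⁻¹ * y * a⁻¹⁻¹, hE.conj_mem y hy _, ?_, ?_⟩
  · rcases ha with ha | ha
    · calc a⁻¹ * y * a⁻¹⁻¹ * x0 * (a⁻¹ * y * a⁻¹⁻¹)⁻¹ = a⁻¹ * (y * (a * x0 * a⁻¹) * y⁻¹) * a := by group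
        _ = a⁻¹ * (a * x0 * a⁻¹)⁻¹ * a := by rw [ha, h1]
        _ = x0⁻¹ := by group
    · calc a⁻¹ * y * a⁻¹⁻¹ * x0 * (a⁻¹ * y * a⁻¹⁻¹)⁻¹ = a⁻¹ * (y * (a * x0 * a⁻¹) * y⁻¹) * a := by group
        _ = a⁻¹ * (y * x0 * y⁻¹)⁻¹ * a := by rw [ha]; group
        _ = a⁻¹ * (a * x0 * a⁻¹)⁻¹ * a := by rw [ha, h1]
        _ = x0⁻¹ := by group
  · have e : a⁻¹ * y * a⁻¹⁻¹ * x * (a⁻¹ * y * a⁻¹⁻¹)⁻¹ = a⁻¹ * (y * (a * x * a⁻¹) * y⁻¹) * a := by group
    rcases h2 with h2 | h2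
    · left; rw [e, h2]; group
    · right; rw [e, h2]; group

/-- A group with involutory letters acting by networks; the stabiliser of `0` centralises the letter `d`. -/
structure Sys (G : Type*) [Group G] (L : Type) where
  φ : G →* Equiv.Perm ℕ
  gen : L → G
  sq : ∀ x, gen x * gen x = 1
  N : ℕ
  nw : List L → List Net
  ok : ∀ w, WOk N (nw w)
  hw : ∀ w, φ (w.map gen).prod = wperm (nw w)
  d : L
  hd : ∀ g, φ g 0 = 0 → g * gen d = gen d * g
  u : L
  braid : (gen d * gen u) ^ 3 = 1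

/-- `(a, b)` is an even permutation of `(r, q)` on the line `r, q, s`. -/
def evB (r q s a b : ℕ) : Bool :=
  (Nat.beq a r && Nat.beq b q) || ((Nat.beq a q && Nat.beq b s) || (Nat.beq a s && Nat.beq b r))

/-- `(a, b)` is an odd permutation of `(r, q)` on the line `r, q, s`. -/
def odB (r q s a b : ℕ) : Bool :=
  (Nat.beq a q && Nat.beq b r) || ((Nat.beq a r && Nat.beq b s) || (Nat.beq a s && Nat.beq b q))

namespace Sys

variable {L : Type} (S : Sys G L)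

/-- The element of a word. -/
def ev (w : List L) : G := (w.map S.gen).prod

theorem ev_nil : S.ev [] = 1 := rfl

theorem ev_cons (x : L) (w : List L) : S.ev (x :: w) = S.gen x * S.ev w := by simp [ev]

theorem ev_append (v w : List L) : S.ev (v ++ w) = S.ev v * S.ev w := by simp [ev]

theorem gen_inv (x : L) : (S.gen x)⁻¹ = S.gen x := inv_eq_of_mul_eq_one_left (S.sq x)

theorem ev_reverse (w : List L) : S.ev w.reverse = (S.ev w)⁻¹ := by
  induction w with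
  | nil => simp [ev]
  | cons x w ih => rw [List.reverse_cons, ev_append, ih, ev_cons, ev_cons, ev_nil, mul_one, mul_inv_rev, gen_inv]

/-- The image of a point under a word. -/
noncomputable def act (w : List L) (p : ℕ) : ℕ := winv (S.nw w.reverse) p

theorem act_eq (w : List L) (p : ℕ) : S.act w p = S.φ (S.ev w) p := by
  unfold act
  rw [winv_eq (S.ok _), ← S.hw]
  change (S.φ (S.ev w.reverse))⁻¹ p = _
  rw [ev_reverse, map_inv, inv_inv]

/-- The transposition of the point `φ g 0`. -/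
def tr (g : G) : G := g * S.gen S.d * g⁻¹

theorem tr_sq (g : G) : S.tr g * S.tr g = 1 := by
  calc S.tr g * S.tr g = g * (S.gen S.d * S.gen S.d) * g⁻¹ := by unfold tr; group
    _ = 1 := by rw [S.sq]; group

theorem tr_mul (a g : G) : S.tr (a * g) = a * S.tr g * a⁻¹ := by unfold tr; group

theorem tr_congr {g g' : G} (h : S.φ g 0 = S.φ g' 0) : S.tr g = S.tr g' := by
  have h1 : S.φ (g'⁻¹ * g) 0 = 0 := by
    rw [map_mul, Equiv.Perm.mul_apply, h, map_inv]; simp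
  have h2 := S.hd _ h1
  calc S.tr g = g' * (g'⁻¹ * g * S.gen S.d) * g⁻¹ := by unfold tr; group
    _ = S.tr g' := by rw [h2]; unfold tr; group

theorem conj_pair {g1 g2 a h1 h2 : G} (e1 : S.φ a (S.φ g1 0) = S.φ h1 0) (e2 : S.φ a (S.φ g2 0) = S.φ h2 0) :
    a * (S.tr g1 * S.tr g2) * a⁻¹ = S.tr h1 * S.tr h2 := by
  have c1 : S.tr (a * g1) = S.tr h1 := S.tr_congr (by rw [map_mul]; exact e1)
  have c2 : S.tr (a * g2) = S.tr h2 := S.tr_congr (by rw [map_mul]; exact e2)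
  rw [← c1, ← c2, tr_mul, tr_mul]
  group

theorem six {g1 g2 a : G} {r q s : ℕ} (h3 : (S.tr g1 * S.tr g2) ^ 3 = 1) (hr : S.φ g1 0 = r) (hq : S.φ g2 0 = q)
    (hs : S.φ (S.tr g1) q = s) :
    (evB r q s (S.φ a r) (S.φ a q) = true → a * (S.tr g1 * S.tr g2) * a⁻¹ = S.tr g1 * S.tr g2) ∧
    (odB r q s (S.φ a r) (S.φ a q) = true → a * (S.tr g1 * S.tr g2) * a⁻¹ = (S.tr g1 * S.tr g2)⁻¹) := by
  have hs' : S.φ (S.tr g1 * g2) 0 = s := by rw [map_mul, Equiv.Perm.mul_apply, hq, hs]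
  have i1 : (S.tr g1)⁻¹ = S.tr g1 := inv_eq_of_mul_eq_one_left (S.tr_sq g1)
  have i2 : (S.tr g2)⁻¹ = S.tr g2 := inv_eq_of_mul_eq_one_left (S.tr_sq g2)
  have i3 : S.tr g1 * S.tr g2 * (S.tr g1 * S.tr g2) = (S.tr g1 * S.tr g2)⁻¹ := by
    rw [eq_inv_iff_mul_eq_one, ← h3, pow_succ, pow_two]
  have i4 : (S.tr g1 * S.tr g2)⁻¹ = S.tr g2 * S.tr g1 := by rw [mul_inv_rev, i1, i2]
  subst hr hq
  unfold evB odB
  simp only [Bool.or_eq_true, Bool.and_eq_true, Nat.beq_eq]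
  refine ⟨?_, ?_⟩
  · rintro (⟨e1, e2⟩ | ⟨e1, e2⟩ | ⟨e1, e2⟩)
    · exact S.conj_pair e1 e2
    · rw [S.conj_pair e1 (e2.trans hs'.symm), tr_mul, i1]
      calc S.tr g2 * (S.tr g1 * S.tr g2 * S.tr g1) = (S.tr g2 * S.tr g1) * (S.tr g2 * S.tr g1) := by group
        _ = (S.tr g1 * S.tr g2 * (S.tr g1 * S.tr g2))⁻¹ := by rw [← i4]; group
        _ = _ := by rw [i3, inv_inv]
    · rw [S.conj_pair (e1.trans hs'.symm) e2, tr_mul]; group
  · rintro (⟨e1, e2⟩ | ⟨e1, e2⟩ | ⟨e1, e2⟩)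
    · rw [S.conj_pair e1 e2, i4]
    · rw [S.conj_pair e1 (e2.trans hs'.symm), tr_mul, i4, ← mul_assoc, ← mul_assoc, S.tr_sq, one_mul, i1]
    · rw [S.conj_pair (e1.trans hs'.symm) e2, tr_mul, i1, ← i3]; group

/-- The element of order three. -/
def x0 : G := S.tr 1 * S.tr (S.gen S.u)

theorem x0_eq : S.x0 = S.gen S.d * S.gen S.u * (S.gen S.d * S.gen S.u) := by
  unfold x0 tr
  rw [gen_inv]; group

theorem x0_cube : S.x0 ^ 3 = 1 := by
  rw [x0_eq, ← pow_two, ← pow_mul, mul_comm, pow_mul, S.braid, one_pow]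

/-- The word centralises or inverts `x0`. -/
noncomputable def inA (p2 p3 : ℕ) (w : List L) : Bool :=
  force (S.act w 0) fun a => force (S.act w p2) fun b => evB 0 p2 p3 a b || odB 0 p2 p3 a b

/-- The word inverts `x0`. -/
noncomputable def odA (p2 p3 : ℕ) (w : List L) : Bool :=
  force (S.act w 0) fun a => force (S.act w p2) fun b => odB 0 p2 p3 a b

/-- The points of the line of `x0`. -/
noncomputable def lineB (p2 p3 : ℕ) : Bool := Nat.beq (S.act [S.u] 0) p2 && Nat.beq (S.act [S.d] p2) p3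

theorem six0 {p2 p3 : ℕ} (h : S.lineB p2 p3 = true) (a : G) :
    (evB 0 p2 p3 (S.φ a 0) (S.φ a p2) = true → a * S.x0 * a⁻¹ = S.x0) ∧
    (odB 0 p2 p3 (S.φ a 0) (S.φ a p2) = true → a * S.x0 * a⁻¹ = S.x0⁻¹) := by
  unfold lineB at h
  rw [Bool.and_eq_true, Nat.beq_eq, Nat.beq_eq, act_eq, act_eq, ev_cons, ev_cons, ev_nil, mul_one, mul_one] at h
  refine S.six S.x0_cube (by rw [map_one]; rfl) h.1 ?_
  rw [← h.2]
  unfold tr
  rw [one_mul, inv_one, mul_one]

theorem odA_spec {p2 p3 : ℕ} (h : S.lineB p2 p3 = true) {w : List L} (hw : S.odA p2 p3 w = true) :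
    S.ev w * S.x0 * (S.ev w)⁻¹ = S.x0⁻¹ := by
  unfold odA at hw
  rw [force_eq, force_eq, act_eq, act_eq] at hw
  exact (S.six0 h _).2 hw

theorem inA_spec {p2 p3 : ℕ} (h : S.lineB p2 p3 = true) {w : List L} (hw : S.inA p2 p3 w = true) :
    S.ev w ∈ inv2 S.x0 := by
  unfold inA at hw
  rw [force_eq, force_eq, act_eq, act_eq, Bool.or_eq_true] at hw
  exact hw.imp (S.six0 h _).1 (S.six0 h _).2

/-- The pairs of transpositions at the points `r, q` are good. -/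
def PtGood (E : Subgroup G) (r q : ℕ) : Prop :=
  ∀ g1 g2 : G, S.φ g1 0 = r → S.φ g2 0 = q → (S.tr g1 * S.tr g2) ^ 3 = 1 → Good E S.x0 (S.tr g1 * S.tr g2)

theorem PtGood.move {E : Subgroup G} (hE : E.Normal) {a : G} (ha : a ∈ inv2 S.x0) {r q : ℕ}
    (h : S.PtGood E (S.φ a r) (S.φ a q)) : S.PtGood E r q := by
  intro g1 g2 h1 h2 h3
  have e : S.tr (a * g1) * S.tr (a * g2) = a * (S.tr g1 * S.tr g2) * a⁻¹ := by rw [tr_mul, tr_mul]; group
  refine Good.conj hE ha ?_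
  rw [← e]
  refine h _ _ (by rw [map_mul, Equiv.Perm.mul_apply, h1]) (by rw [map_mul, Equiv.Perm.mul_apply, h2]) ?_
  rw [e, conj_pow, h3]; group

/-- The check of a witness `y` for the points `r = wr 0` and `q`. -/
noncomputable def witB (okE : List L → Bool) (p2 p3 r : ℕ) (wr : List L) (z : ℕ × List L) : Bool :=
  okE z.2 && (S.odA p2 p3 z.2 && force (S.act (wr ++ S.d :: wr.reverse) z.1) fun s =>
    force (S.act z.2 r) fun a => force (S.act z.2 z.1) fun b => evB r z.1 s a b || odB r z.1 s a b)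

theorem witB_spec {E : Subgroup G} {okE : List L → Bool} (hE : ∀ w, okE w = true → S.ev w ∈ E) {p2 p3 : ℕ}
    (h : S.lineB p2 p3 = true) {r : ℕ} {wr : List L} (hr : S.φ (S.ev wr) 0 = r) {z : ℕ × List L}
    (hz : S.witB okE p2 p3 r wr z = true) : S.PtGood E r z.1 := by
  unfold witB at hz
  rw [force_eq, force_eq, force_eq, act_eq, act_eq, act_eq, Bool.and_eq_true, Bool.and_eq_true,
    Bool.or_eq_true] at hz
  obtain ⟨h1, h2, h3⟩ := hz
  intro g1 g2 e1 e2 e3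
  have hs : S.φ (S.tr g1) z.1 = S.φ (S.ev (wr ++ S.d :: wr.reverse)) z.1 := by
    rw [S.tr_congr (e1.trans hr.symm), ev_append, ev_cons, ev_reverse, ← mul_assoc]; rfl
  have h6 := S.six (a := S.ev z.2) e3 e1 e2 hs
  exact ⟨S.ev z.2, hE _ h1, S.odA_spec h h2, h3.imp h6.1 h6.2⟩

/-- The set of the listed points. -/
noncomputable def mask (ps : List ℕ) : ℕ := List.rec (motive := fun _ => ℕ) 0 (fun p _ ih => Nat.lor (Nat.pow 2 p) ih) ps

theorem mask_spec {ps : List ℕ} {p : ℕ} (h : (mask ps).testBit p = true) : p ∈ ps := by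
  induction ps with
  | nil => exact absurd h (by simp [mask])
  | cons a ps ih =>
    have h' : (2 ^ a ||| mask ps).testBit p = true := h
    rw [Nat.testBit_or, Bool.or_eq_true, Nat.testBit_two_pow] at h'
    rcases h' with h' | h'
    · rw [decide_eq_true_eq] at h'
      rw [h']; exact List.mem_cons_self
    · exact List.mem_cons_of_mem _ (ih h')

theorem wsOk (ws : List (List L)) : WsOk S.N (ws.map S.nw) := by
  intro w hw
  obtain ⟨l, _, rfl⟩ := List.mem_map.1 hw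
  exact S.ok l

theorem cover {K : Subgroup G} {ws : List (List L)} (hK : ∀ w ∈ ws, S.ev w ∈ K) {ps : List ℕ} {U : ℕ}
    (h : Nat.beq (sat (ws.map S.nw) 1 (mask ps)) U = true) {p : ℕ} (hp : U.testBit p = true) :
    ∃ a ∈ K, S.φ a p ∈ ps := by
  rw [← Nat.eq_of_beq_eq_true h] at hp
  obtain ⟨_, ⟨a, ha, rfl⟩, e⟩ := sat_spec (K := K.map S.φ) (S.wsOk ws) (fun w hw => by
    obtain ⟨l, hl, rfl⟩ := List.mem_map.1 hw
    exact ⟨_, hK l hl, S.hw l⟩) 1 hp
  exact ⟨a, ha, mask_spec e⟩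

/-- All pairs with first point `wr 0` are good. -/
def RepGood (E : Subgroup G) (UR : ℕ) (r : ℕ) : Prop :=
  ∃ w : G, S.φ w 0 = r ∧ ∀ q, UR.testBit (S.φ w⁻¹ q) = true → S.PtGood E r q

/-- The point checks at a representative. -/
noncomputable def repB (okE : List L → Bool) (p2 p3 r : ℕ) (wr : List L) (ws : List (List L))
    (zs : List (ℕ × List L)) : Bool :=
  Nat.beq (S.act wr 0) r && (ws.all (fun w => S.inA p2 p3 w && Nat.beq (S.act w r) r) &&
    zs.all (S.witB okE p2 p3 r wr))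

/-- The covering check at a representative. -/
noncomputable def covB (UR : ℕ) (wr : List L) (ws : List (List L)) (zs : List (ℕ × List L)) : Bool :=
  Nat.beq (sat (ws.map S.nw) 1 (mask (zs.map Prod.fst))) (appWord (S.nw wr.reverse) UR)

theorem repGood {E : Subgroup G} (hN : E.Normal) {okE : List L → Bool} (hE : ∀ w, okE w = true → S.ev w ∈ E)
    {p2 p3 : ℕ} (h : S.lineB p2 p3 = true) {UR r : ℕ} {wr : List L} {ws : List (List L)}
    {zs : List (ℕ × List L)} (h1 : S.repB okE p2 p3 r wr ws zs = true) (h2 : S.covB UR wr ws zs = true) :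
    S.RepGood E UR r := by
  unfold repB at h1
  rw [Bool.and_eq_true, Bool.and_eq_true, Nat.beq_eq, act_eq, List.all_eq_true, List.all_eq_true] at h1
  obtain ⟨e1, e2, e3⟩ := h1
  refine ⟨S.ev wr, e1, fun q hq => ?_⟩
  have hK : ∀ w ∈ ws, S.ev w ∈ inv2 S.x0 ⊓ (MulAction.stabilizer (Equiv.Perm ℕ) r).comap S.φ := by
    intro w hw
    have := e2 w hw
    rw [Bool.and_eq_true, Nat.beq_eq, act_eq] at this
    exact ⟨S.inA_spec h this.1, this.2⟩
  obtain ⟨a, ⟨ha, ha'⟩, e⟩ := S.cover hK h2 (p := q) (by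
    rw [testBit_appWord (S.ok _), ← S.hw]
    change UR.testBit (S.φ (S.ev wr.reverse) q) = true
    rw [ev_reverse]; exact hq)
  obtain ⟨z, hz, e4⟩ := List.mem_map.1 e
  refine PtGood.move S hN ha ?_
  have ha'' : S.φ a r = r := ha'
  rw [ha'', ← e4]
  exact S.witB_spec hE h e1 (e3 z hz)

theorem good_all {E : Subgroup G} (hN : E.Normal) {p2 p3 : ℕ} (h : S.lineB p2 p3 = true) {UG UR : ℕ}
    (hG : ∀ g, UG.testBit (S.φ g 0) = true) (hR : ∀ g, S.φ g 0 = 0 → UR.testBit (S.φ g p2) = true)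
    {ws : List (List L)} {rs : List ℕ} (h1 : ws.all (S.inA p2 p3) = true)
    (h2 : Nat.beq (sat (ws.map S.nw) 1 (mask rs)) UG = true) (h3 : ∀ r ∈ rs, S.RepGood E UR r) (t : G) :
    Good E S.x0 (t * S.x0 * t⁻¹) := by
  obtain ⟨a, ha, e⟩ := S.cover (K := inv2 S.x0) (fun w hw => S.inA_spec h (List.all_eq_true.1 h1 w hw)) h2 (hG t)
  obtain ⟨w, hw, hq⟩ := h3 _ e
  have hp2 : S.φ (S.gen S.u) 0 = p2 := by
    unfold lineB at h
    rw [Bool.and_eq_true, Nat.beq_eq, act_eq, ev_cons, ev_nil, mul_one] at h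
    exact h.1
  have h4 := hq (S.φ a (S.φ t p2)) (by
    have := hR (w⁻¹ * a * t) (by
      rw [map_mul, map_mul, Equiv.Perm.mul_apply, Equiv.Perm.mul_apply, ← hw, map_inv]; simp)
    rwa [map_mul, map_mul, Equiv.Perm.mul_apply, Equiv.Perm.mul_apply] at this)
  have e2 : S.tr (t * 1) * S.tr (t * S.gen S.u) = t * S.x0 * t⁻¹ := by
    rw [tr_mul, tr_mul]; unfold x0; group
  rw [← e2]
  refine PtGood.move S hN ha h4 _ _ (by rw [mul_one]) (by rw [map_mul, Equiv.Perm.mul_apply, hp2]) ?_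
  rw [e2, conj_pow, S.x0_cube]; group

/-- `x0` fixes `f` and moves `w f`. -/
noncomputable def outB (w : List L) (f : ℕ) : Bool :=
  Nat.beq (S.act [S.d, S.u, S.d, S.u] f) f &&
    force (S.act w f) fun a => !(Nat.beq (S.act [S.d, S.u, S.d, S.u] a) a)

theorem outB_spec {w : List L} {f : ℕ} (h : S.outB w f = true) : S.ev w ∉ inv2 S.x0 := by
  unfold outB at h
  have e : S.ev [S.d, S.u, S.d, S.u] = S.x0 := by
    rw [x0_eq, ev_cons, ev_cons, ev_cons, ev_cons, ev_nil]; group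
  rw [force_eq, act_eq, act_eq, act_eq, e, Bool.and_eq_true, Nat.beq_eq, Bool.not_eq_true'] at h
  obtain ⟨h1, h2⟩ := h
  have h3 : S.φ (S.ev w * S.x0 * (S.ev w)⁻¹) (S.φ (S.ev w) f) = S.φ (S.ev w) f := by
    rw [map_mul, map_mul, map_inv, Equiv.Perm.mul_apply, Equiv.Perm.mul_apply]
    simp [h1]
  have h4 : S.φ S.x0 (S.φ (S.ev w) f) ≠ S.φ (S.ev w) f := by
    intro h5
    rw [h5, Nat.beq_refl] at h2
    exact Bool.noConfusion h2
  rintro (h5 | h5)
  · rw [h5] at h3; exact h4 h3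
  · rw [h5, map_inv, Equiv.Perm.inv_eq_iff_eq] at h3
    exact h4 h3.symm

end Sys

end Cfsg.Agent.SP.PosC.Line
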